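import Cfsg.Agent.Lib.IBr.Generalized
import Cfsg.Agent.Lib.Blocks.Idempotent
import Cfsg.Agent.Lib.CharTheory.Decomp

/-!
# Decomposition numbers and their block structure
-/

set_option autoImplicit false
set_option linter.style.haveILetI false
set_option linter.unusedSectionVars false

namespace CfsgLib.IBr

open Cfsg Finset Module CfsgLib.Blocks

universe u

variable {p : ℕ} {M : Ideal AlgInt} {S : PSys p M}

namespace PSys

section

variable {H : Type u} [Group H] [Fintype H]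

theorem act_one_ne_zero {s : S.CoordRep H} (hs : Simple s.2) :
    (1 : Module.End S.K (Fin s.1 → S.K)) ≠ 0 := fun h =>
  hs.2.1 ((Submodule.eq_bot_iff _).2 fun x _ => by simpa using LinearMap.congr_fun h x)

/-- Simple representations with the same Brauer character have the same annihilator. -/
theorem Fits.act_eq_zero_of_brau_eq (hH : S.Fits H) {s t : S.CoordRep H} (hs : Simple s.2)
    (h : S.brau s.2 = S.brau t.2) {f : H → S.K} (hf : act t.2 f = 0) : act s.2 f = 0 := by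
  classical
  haveI := S.isAlgClosed
  have htr : ∀ c : H → S.K,
      LinearMap.trace S.K _ (act s.2 c) = LinearMap.trace S.K _ (act t.2 c) := by
    intro c
    simp only [act, map_sum, map_smul, smul_eq_mul]
    refine Finset.sum_congr rfl fun g _ => ?_
    obtain ⟨v, hv, hvr⟩ := hH.residue_brau s.2 g
    obtain ⟨v', hv', hvr'⟩ := hH.residue_brau t.2 g
    rw [h, ← hv'] at hv
    rw [← hvr, ← hvr', Subtype.ext hv]
  by_contra hne
  obtain ⟨v, hv⟩ : ∃ v, act s.2 f v ≠ 0 := by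
    by_contra hz
    push Not at hz
    exact hne (LinearMap.ext hz)
  obtain ⟨k, hk⟩ := Function.ne_iff.1 hv
  have hspan := CfsgLib.RepCritical.span_eq_top s.2 hs
  rw [Subgroup.coe_top, Set.image_univ] at hspan
  obtain ⟨c, hc⟩ := (Submodule.mem_span_range_iff_exists_fun S.K).1
    (show ((((act s.2 f v) k)⁻¹ • LinearMap.proj k).smulRight v : Module.End S.K (Fin s.1 → S.K)) ∈
      Submodule.span S.K (Set.range fun g => s.2 g) from hspan ▸ Submodule.mem_top)
  have h1 := htr (fun x => ∑ y, f y * c (y⁻¹ * x))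
  rw [act_conv, act_conv, hf, zero_mul, map_zero, show act s.2 c = _ from hc] at h1
  rw [show act s.2 f * ((((act s.2 f v) k)⁻¹ • LinearMap.proj k).smulRight v : Module.End S.K (Fin s.1 → S.K))
    = (((act s.2 f v) k)⁻¹ • LinearMap.proj k).smulRight (act s.2 f v) from
      LinearMap.ext fun x => by simp, LinearMap.trace_smulRight] at h1
  simp [inv_mul_cancel₀ hk] at h1

theorem simple_comp (α : H ≃* H) {s : S.CoordRep H} (hs : Simple s.2) :
    Simple (s.2.comp α.toMonoidHom : Representation S.K H (Fin s.1 → S.K)) := by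
  refine ⟨fun g _ x _ => Submodule.mem_top, hs.2.1, fun U hU hinv => hs.2.2 U hU fun g _ x hx => ?_⟩
  have := hinv (α.symm g) (Subgroup.mem_top _) x hx
  simpa using this

theorem brau_comp (α : H ≃* H) (s : S.CoordRep H) :
    S.brau (s.2.comp α.toMonoidHom : Representation S.K H (Fin s.1 → S.K)) =
      fun g => S.brau s.2 (α g) := by
  funext g
  show S.brauEnd (s.2 (α (g ^ S.e))) = S.brauEnd (s.2 ((α g) ^ S.e))
  rw [map_pow]

theorem asAlgebraHom_eq_sum {n : ℕ} (ρ : Representation ℂ H (Fin n → ℂ))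
    (z : MonoidAlgebra ℂ H) : ρ.asAlgebraHom z = ∑ g, z.coeff g • ρ g := by
  rw [Representation.asAlgebraHom_def, MonoidAlgebra.lift_apply, Finsupp.sum_fintype]
  intro i
  rw [zero_smul]

end

/-- Decomposition numbers: a set of functions and the multiplicities of its members. -/
structure Decomposition (S : PSys p M) (G : Type u) [Group G] [Fintype G] where
  /-- The irreducible Brauer characters, extended through the `p'`-part. -/
  irr : Finset (G → ℂ)
  /-- The decomposition numbers. -/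
  num : IrrCharacter G → (G → ℂ) → ℕ
  apply_reg : ∀ φ ∈ irr, ∀ g, φ (S.reg g) = φ g
  indep : ∀ a : (G → ℂ) → ℂ, (∀ g, ∑ φ ∈ irr, a φ * φ g = 0) → ∀ φ ∈ irr, a φ = 0
  degree : ∀ φ ∈ irr, ∃ n : ℕ, 0 < n ∧ φ 1 = n
  sum_num : ∀ (χ : IrrCharacter G) (g : G),
    (χ : G → ℂ) (S.reg g) = ∑ φ ∈ irr, (num χ φ : ℂ) * φ g
  num_eq_zero : ∀ χ φ, φ ∉ irr → num χ φ = 0
  generalized : ∀ φ ∈ irr, IsGeneralizedCharacter G φ
  occurs : ∀ φ ∈ irr, ∃ χ, num χ φ ≠ 0
  block : ∀ B : Set (IrrCharacter G), IsPBlock M B → ∀ χ ∈ B, ∀ ψ, ψ ∉ B → ∀ φ,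
    num χ φ = 0 ∨ num ψ φ = 0
  comp_mem : ∀ α : G ≃* G, ∀ φ ∈ irr, (fun g => φ (α g)) ∈ irr

variable {G : Type u} [Group G] [Fintype G]

theorem exists_decomposition (hG : S.Fits G) : Nonempty (S.Decomposition G) := by
  classical
  haveI := isPrime_of_isPModular S.hM
  haveI := Fintype.ofFinite (IrrCharacter G)
  let r := IsLocalRing.residue S.V
  have hlift : ∀ χ : IrrCharacter G, ∃ l : List (S.CoordRep G), (∀ s ∈ l, Simple s.2) ∧
      (∀ g, (χ : G → ℂ) (S.reg g) = (l.map fun s => S.brau s.2 g).sum) ∧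
      ∀ (B : Set (IrrCharacter G)) (hB : IsPBlock M B), ∀ s ∈ l,
        act s.2 (fun g => r ⟨blockCoeff B g, S.hV (memLocalRing_blockCoeff hB g)⟩) =
          (if χ ∈ B then 1 else 0 : S.K) • 1 := by
    intro χ
    obtain ⟨d, ρ, hirr, hρ⟩ := χ.2
    obtain ⟨σ, hσ, hact⟩ := hG.exists_lift ρ
    obtain ⟨l, hl, hsum, hinh⟩ := hG.exists_factors d (Fin d → S.K) σ (Module.finrank_fin_fun S.K)
    refine ⟨l, hl, fun g => ?_, fun B hB => hinh _ _ ?_⟩
    · rw [← hρ, ← hσ, ← hsum]
    · have h1 := hact (fun g => ⟨blockCoeff B g, S.hV (memLocalRing_blockCoeff hB g)⟩)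
        (if χ ∈ B then 1 else 0) (by
          haveI := hirr
          have h2 := asAlgebraHom_eq_omega_smul ρ (isClassElem_blockIdem B)
          rw [asAlgebraHom_eq_sum, hρ, omega_blockIdem B] at h2
          simp only [coeff_blockIdem] at h2
          rw [h2]
          split_ifs <;> simp [Module.End.one_eq_id])
      rw [h1]
      split_ifs <;> simp
  choose l hl hsum hblk using hlift
  let L : IrrCharacter G → List (G → ℂ) := fun χ => (l χ).map fun s => S.brau s.2
  let irr : Finset (G → ℂ) := univ.biUnion fun χ => (L χ).toFinset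
  have hirr : ∀ {φ}, φ ∈ irr ↔ ∃ χ, ∃ s ∈ l χ, S.brau s.2 = φ := by
    intro φ
    simp [irr, L]
  haveI : Nonempty (S.CoordRep G) := ⟨⟨0, 1⟩⟩
  haveI : Nonempty (IrrCharacter G) := ⟨CfsgLib.CharTheory.trivIrr G⟩
  choose! χ₀ rep hrepl hrep using fun φ (h : φ ∈ irr) => hirr.1 h
  have hindep : ∀ a : (G → ℂ) → ℂ, (∀ g, ∑ φ ∈ irr, a φ * φ g = 0) → ∀ φ ∈ irr, a φ = 0 := by
    intro a ha φ hφ
    refine hG.eq_zero_of_sum (fun f : irr => rep f.1) (fun f => hl _ _ (hrepl _ f.2)) ?_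
      (fun f => a f.1) (fun g => ?_) ⟨φ, hφ⟩
    · intro f f' h
      exact Subtype.ext ((hrep _ f.2).symm.trans (h.trans (hrep _ f'.2)))
    · rw [← ha g, ← Finset.sum_coe_sort irr]
      exact Finset.sum_congr rfl fun f _ => by rw [hrep _ f.2]
  have hnum : ∀ (χ : IrrCharacter G) (g : G), (χ : G → ℂ) (S.reg g) = ∑ φ ∈ irr, (((L χ).count φ : ℕ) : ℂ) * φ g := by
    intro χ g
    have h1 : ((L χ).map fun φ => φ g).sum = ∑ φ ∈ (L χ).toFinset, (L χ).count φ • φ g :=
      Finset.sum_list_map_count (L χ) fun φ => φ g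
    have h2 : (l χ).map (fun s => S.brau s.2 g) = (L χ).map fun φ => φ g := by
      simp only [L, List.map_map]; rfl
    rw [hsum, h2, h1]
    simp only [nsmul_eq_mul]
    refine Finset.sum_subset (fun φ hφ => mem_biUnion.2 ⟨χ, mem_univ χ, hφ⟩) fun φ _ hφ => ?_
    rw [List.count_eq_zero.2 fun h => hφ (List.mem_toFinset.2 h), Nat.cast_zero, zero_mul]
  have hmem : ∀ s : S.CoordRep G, Simple s.2 → S.brau s.2 ∈ irr := by
    intro s hs
    by_contra hnot
    obtain ⟨a, ha⟩ := CfsgLib.CharTheory.isGeneralizedCharacter_iff_exists_sum.1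
      (hG.isGeneralizedCharacter_brau s.2)
    let c : (G → ℂ) → ℂ := fun φ => ∑ χ, (a χ : ℂ) * ((L χ).count φ : ℕ)
    have hs1 : ∀ g, S.brau s.2 g = ∑ φ ∈ irr, c φ * φ g := fun g => by
      rw [← hG.brau_reg, ha]
      simp only [Finset.sum_apply, Pi.smul_apply, smul_eq_mul, hnum, c, Finset.mul_sum, Finset.sum_mul]
      rw [Finset.sum_comm]
      exact Finset.sum_congr rfl fun φ _ => Finset.sum_congr rfl fun χ _ => (mul_assoc _ _ _).symm
    refine (one_ne_zero : (1 : ℂ) ≠ 0) (neg_eq_zero.1 (hG.eq_zero_of_sum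
      (fun o : Option irr => o.elim s fun f => rep f.1) ?_ ?_
      (fun o => o.elim (-1) fun f => c f.1) (fun g => ?_) none))
    · rintro (_ | f)
      exacts [hs, hl _ _ (hrepl _ f.2)]
    · rintro (_ | f) (_ | f') h
      · rfl
      · have h' : S.brau s.2 = f'.1 := h.trans (hrep _ f'.2)
        exact absurd (h' ▸ f'.2) hnot
      · have h' : S.brau s.2 = f.1 := h.symm.trans (hrep _ f.2)
        exact absurd (h' ▸ f.2) hnot
      · rw [Subtype.ext ((hrep _ f.2).symm.trans (h.trans (hrep _ f'.2)))]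
    · rw [Fintype.sum_option]
      show (-1 : ℂ) * S.brau s.2 g + ∑ f : irr, c f.1 * S.brau (rep f.1).2 g = 0
      rw [Finset.sum_congr rfl fun (f : irr) _ => by rw [hrep _ f.2],
        Finset.sum_coe_sort irr fun φ => c φ * φ g, ← hs1]
      ring
  refine ⟨⟨irr, fun χ φ => (L χ).count φ, ?_, hindep, ?_, hnum, ?_, ?_, ?_, ?_, ?_⟩⟩
  · intro φ hφ g
    rw [← hrep φ hφ, hG.brau_reg]
  · intro φ hφ
    refine ⟨finrank S.K (Fin (rep φ).1 → S.K), ?_, (congrFun (hrep φ hφ) 1).symm.trans (brau_one _)⟩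
    haveI : Nontrivial (Fin (rep φ).1 → S.K) := by
      by_contra hnt
      rw [not_nontrivial_iff_subsingleton] at hnt
      exact act_one_ne_zero (hl _ _ (hrepl φ hφ)) (Subsingleton.elim _ _)
    exact Module.finrank_pos
  · intro χ φ hφ
    exact List.count_eq_zero.2 fun h => hφ (mem_biUnion.2 ⟨χ, mem_univ χ, List.mem_toFinset.2 h⟩)
  · intro φ hφ
    rw [← hrep φ hφ]
    exact hG.isGeneralizedCharacter_brau _
  · intro φ hφ
    refine ⟨χ₀ φ, fun h => List.count_eq_zero.1 h ?_⟩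
    exact List.mem_map.2 ⟨rep φ, hrepl φ hφ, hrep φ hφ⟩
  · intro B hB χ hχ ψ hψ φ
    by_contra hboth
    rw [not_or] at hboth
    obtain ⟨s, hs, hsφ⟩ := List.mem_map.1 (List.count_pos_iff.1 (Nat.pos_of_ne_zero hboth.1))
    obtain ⟨t, ht, htφ⟩ := List.mem_map.1 (List.count_pos_iff.1 (Nat.pos_of_ne_zero hboth.2))
    have h1 := hblk χ B hB s hs
    have h2 := hblk ψ B hB t ht
    rw [if_pos hχ, one_smul] at h1
    rw [if_neg hψ, zero_smul] at h2
    exact act_one_ne_zero (hl _ _ hs)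
      (h1.symm.trans (hG.act_eq_zero_of_brau_eq (hl _ _ hs) (hsφ.trans htφ.symm) h2))
  · intro α φ hφ
    rw [← hrep φ hφ, ← brau_comp α (rep φ)]
    exact hmem ⟨_, _⟩ (simple_comp α (hl _ _ (hrepl φ hφ)))

namespace Decomposition

variable (D : S.Decomposition G)

open scoped Classical in
/-- The Brauer characters of a set of irreducible characters. -/
noncomputable def inBlock (B : Set (IrrCharacter G)) : Finset (G → ℂ) :=
  D.irr.filter fun φ => ∃ χ ∈ B, D.num χ φ ≠ 0

theorem mem_inBlock {B : Set (IrrCharacter G)} {φ : G → ℂ} :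
    φ ∈ D.inBlock B ↔ φ ∈ D.irr ∧ ∃ χ ∈ B, D.num χ φ ≠ 0 := by
  classical
  simp [inBlock]

theorem inBlock_subset (B : Set (IrrCharacter G)) : D.inBlock B ⊆ D.irr := fun _ h =>
  (D.mem_inBlock.1 h).1

theorem sum_inBlock {B : Set (IrrCharacter G)} {χ : IrrCharacter G} (hχ : χ ∈ B) (g : G) :
    (χ : G → ℂ) (S.reg g) = ∑ φ ∈ D.inBlock B, (D.num χ φ : ℂ) * φ g := by
  rw [D.sum_num]
  refine (Finset.sum_subset (D.inBlock_subset B) fun φ hφ hn => ?_).symm
  rw [D.mem_inBlock] at hn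
  push Not at hn
  rw [hn hφ χ hχ, Nat.cast_zero, zero_mul]

/-- A Brauer character of a block is an integral combination of the restrictions of the block. -/
theorem exists_int_combination [Fintype (IrrCharacter G)] {B : Set (IrrCharacter G)}
    [DecidablePred (· ∈ B)] (hB : IsPBlock M B) {φ : G → ℂ} (hφ : φ ∈ D.inBlock B) :
    ∃ a : IrrCharacter G → ℤ, ∀ g,
      φ g = ∑ χ ∈ univ.filter (· ∈ B), (a χ : ℂ) * (χ : G → ℂ) (S.reg g) := by
  classical
  obtain ⟨hφi, χ₁, hχ₁, hn₁⟩ := D.mem_inBlock.1 hφ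
  obtain ⟨a, ha⟩ := CfsgLib.CharTheory.isGeneralizedCharacter_iff_exists_sum.1 (D.generalized φ hφi)
  refine ⟨a, ?_⟩
  let c : (G → ℂ) → ℂ := fun f => ∑ χ, (a χ : ℂ) * (D.num χ f : ℂ)
  let cB : (G → ℂ) → ℂ := fun f => ∑ χ ∈ univ.filter (· ∈ B), (a χ : ℂ) * (D.num χ f : ℂ)
  have h1 : ∀ f ∈ D.irr, c f = if f = φ then 1 else 0 := by
    intro f hf
    refine sub_eq_zero.1 (D.indep (fun f => c f - if f = φ then 1 else 0) (fun g => ?_) f hf)
    simp only [sub_mul, Finset.sum_sub_distrib, ite_mul, one_mul, zero_mul, Finset.sum_ite_eq',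
      if_pos hφi]
    rw [← D.apply_reg φ hφi g, sub_eq_zero, congrFun ha]
    simp only [Finset.sum_apply, Pi.smul_apply, smul_eq_mul, D.sum_num, c, Finset.mul_sum,
      Finset.sum_mul]
    rw [Finset.sum_comm]
    exact Finset.sum_congr rfl fun x _ => Finset.sum_congr rfl fun y _ => (mul_assoc _ _ _)
  have h2 : ∀ f ∈ D.irr, cB f = if f = φ then 1 else 0 := by
    intro f hf
    by_cases hex : ∃ χ ∈ B, D.num χ f ≠ 0
    · obtain ⟨χ₂, hχ₂, hn₂⟩ := hex
      rw [← h1 f hf]
      refine Finset.sum_subset (Finset.subset_univ _) fun χ _ hχ => ?_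
      rw [(D.block B hB χ₂ hχ₂ χ (by simpa using hχ) f).resolve_left hn₂, Nat.cast_zero, mul_zero]
    · push Not at hex
      rw [if_neg fun (h : f = φ) => hn₁ (h ▸ hex χ₁ hχ₁)]
      exact Finset.sum_eq_zero fun χ hχ => by
        rw [hex χ (mem_filter.1 hχ).2, Nat.cast_zero, mul_zero]
  intro g
  have : ∑ f ∈ D.irr, cB f * f g = φ g := by
    rw [Finset.sum_congr rfl fun f hf => by rw [h2 f hf]]
    simp [hφi]
  rw [← this]
  simp only [cB, D.sum_num, Finset.mul_sum, Finset.sum_mul]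
  rw [Finset.sum_comm]
  exact Finset.sum_congr rfl fun x _ => Finset.sum_congr rfl fun y _ => mul_assoc _ _ _

end Decomposition

end PSys

end CfsgLib.IBr
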